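import Cfsg.Agent.H332.O8R.Rs

/-!
# S3691, row `PΩ⁺₈(q)`: SPIN: `PSp₆(q)` lifts to the stabiliser of a nonsingular vector (helper332)
-/

set_option autoImplicit false
set_option linter.unusedSectionVars false

namespace Cfsg.Agent.H332.O8R

open Module QuadraticMap Cfsg.Agent.H953.O8R
open scoped commutatorElement

variable {F V Γ T G : Type} [Field F] [Fintype F] [AddCommGroup V] [Module F V] [FiniteDimensional F V] [Group Γ] [Group T] [Group G]
  {Q : QuadraticForm F V} {ρ : Γ →* Module.End F V} {π : Γ →* T} {f : G →* T} {n : ℕ} {t : Fin 3 → G}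
  {L : Fin 3 → Subgroup G} {r : Fin 3 → Module.End F V} {c : F}

/-- the space generated by the translates of the plane `P i` -/
def xs (ρ : Γ →* Module.End F V) (r : Fin 3 → Module.End F V) (H : Subgroup Γ) (i : Fin 3) : Submodule F V :=
  Submodule.span F {x | ∃ m ∈ H, ∃ v ∈ LinearMap.range (r i - 1), x = ρ m v}

theorem mem_xs {H : Subgroup Γ} {i : Fin 3} {m : Γ} (hm : m ∈ H) {v : V} (hv : v ∈ LinearMap.range (r i - 1)) :
    ρ m v ∈ xs ρ r H i := Submodule.subset_span ⟨m, hm, v, hv, rfl⟩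

theorem le_xs {H : Subgroup Γ} {i : Fin 3} : LinearMap.range (r i - 1) ≤ xs ρ r H i := by
  intro v hv
  have h := mem_xs (ρ := ρ) (r := r) (i := i) (H.one_mem) hv
  rwa [map_one, Module.End.one_apply] at h

/-- `xs` is orthogonal to every `H`-fixed vector orthogonal to the plane -/
theorem xs_perp (hS : Sys Q ρ π) {H : Subgroup Γ} {i : Fin 3} {w : V} (hw : ∀ m ∈ H, ρ m w = w)
    (hp : ∀ u ∈ LinearMap.range (r i - 1), polar Q u w = 0) {x : V} (hx : x ∈ xs ρ r H i) : polar Q x w = 0 := by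
  unfold xs at hx
  induction hx using Submodule.span_induction with
  | mem x hx =>
    obtain ⟨m, hm, v, hv, rfl⟩ := hx
    rw [sys_polar_inv hS, hw _ (H.inv_mem hm)]
    exact hp v hv
  | zero => exact polar_zero_left Q w
  | add x y _ _ hx hy => rw [polar_add_left, hx, hy, add_zero]
  | smul a x _ hx => rw [polar_smul_left, hx, smul_zero]

/-- elements commuting with `H` and trivial on the plane are trivial on `xs` -/
theorem xs_fix {H : Subgroup Γ} {i : Fin 3} {g : Γ} (hg : ∀ m ∈ H, g * m = m * g)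
    (ht : ∀ v ∈ LinearMap.range (r i - 1), ρ g v = v) {x : V} (hx : x ∈ xs ρ r H i) : ρ g x = x := by
  unfold xs at hx
  induction hx using Submodule.span_induction with
  | mem x hx =>
    obtain ⟨m, hm, v, hv, rfl⟩ := hx
    rw [← Module.End.mul_apply, ← map_mul, hg m hm, map_mul, Module.End.mul_apply, ht v hv]
  | zero => exact map_zero _
  | add x y _ _ hx hy => rw [map_add, hx, hy]
  | smul a x _ hx => rw [map_smul, hx]

/-- **GEO-SP** -/
theorem geo_sp (hS : Sys Q ρ π) (_hf : Function.Injective f) {M : Fin 3 → Subgroup G} (hD : DSp G n t L M)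
    (hR : RS Q ρ π f t L r c) :
    ∃ w : V, Q w ≠ 0 ∧ ∀ v, (∀ x ∈ hat π ((⊤ : Subgroup G).map f), ρ x v = v) ↔ v ∈ Submodule.span F {w} := by
  -- notation
  let Mh : Fin 3 → Subgroup Γ := fun i => hat π ((M i).map f)
  let Lh : Fin 3 → Subgroup Γ := fun i => hat π ((L i).map f)
  have hMp : ∀ i, ⁅Mh i, Mh i⁆ = Mh i := fun i => hat_perf' hS (hD.perf i)
  have hML : ∀ i j, i ≠ j → Mh j ≤ Lh i := fun i j hij => hat_mono (Subgroup.map_mono (hD.le i j hij))
  have hcom : ∀ i, ∀ g ∈ Lh i, ∀ m ∈ Mh i, g * m = m * g := by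
    intro i g hg m hm
    refine hat_comm (hS.central) (fun m' hm' => ?_) hm
    obtain ⟨y, hy, hye⟩ := Subgroup.mem_map.1 hm'
    obtain ⟨x, hx, hxe⟩ := Subgroup.mem_map.1 (mem_of_hat hg)
    rw [← hye, ← hxe, ← map_mul, ← map_mul, hD.cent i x hx y hy]
  -- step 1: `L i` is trivial on `X i`
  have h1 : ∀ i, ∀ g ∈ Lh i, ∀ x ∈ xs ρ r (Mh i) i, ρ g x = x := fun i g hg x hx =>
    xs_fix (hcom i g hg) (fun v hv => hR.triv i g hg v hv) hx
  -- step 2: orthogonality
  have h2 : ∀ i j, i ≠ j → ∀ x ∈ xs ρ r (Mh i) i, x ∈ LinearMap.ker (r j - 1) := by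
    intro i j hij x hx
    rw [mem_ker_iff hS hR]
    intro u hu
    rw [polar_comm]
    exact xs_perp hS (fun m hm => hR.triv j m (hML j i hij.symm hm) u hu) (fun v hv => hR.perp i j hij v hv u hu) hx
  have h2' : ∀ i j, i ≠ j → ∀ x ∈ xs ρ r (Mh i) i, ∀ y ∈ xs ρ r (Mh j) j, polar Q x y = 0 := by
    intro i j hij x hx y hy
    refine xs_perp hS (fun m hm => h1 j m (hML j i hij.symm hm) y hy) (fun u hu => ?_) hx
    rw [polar_comm]
    exact xs_perp hS (fun m hm => hR.triv i m (hML i j hij hm) u hu) (fun v hv => hR.perp j i hij.symm v hv u hu) hy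
  -- step 3
  have h3 : ∀ i, ∃ y ∈ xs ρ r (Mh i) i, y ≠ 0 ∧ y ∈ LinearMap.ker (r i - 1) := by
    intro i
    by_contra hcon
    push Not at hcon
    apply not_triv (f := f) hS hR i (hD.perf i) (hD.mem i)
    refine rs_O2 hS hR i (hMp i) (fun h hh v hv => ?_)
    obtain ⟨p, hp, k, hk, e⟩ := rs_split hR i (ρ h v)
    have hkX : k ∈ xs ρ r (Mh i) i := by
      have e1 : k = ρ h v - p := by rw [e]; abel
      rw [e1]
      exact Submodule.sub_mem _ (mem_xs hh hv) (le_xs hp)
    have hk0 : k = 0 := by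
      by_contra hk0
      exact hcon k hkX hk0 hk
    rw [e, hk0, add_zero]
    exact hp
  choose y hyX hy0 hyk using h3
  have hy4 : ∀ i, y i ∈ p4 r := by
    intro i
    rw [mem_p4]
    intro j
    by_cases hij : i = j
    · rw [← hij]; exact hyk i
    · exact h2 i j hij (y i) (hyX i)
  have hyy : ∀ i j, i ≠ j → polar Q (y i) (y j) = 0 := fun i j hij => h2' i j hij _ (hyX i) _ (hyX j)
  -- step 4: they are parallel
  have h4 : ∀ i, y i ∈ Submodule.span F {y 0} := by
    intro i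
    by_cases h0 : i = 0
    · rw [h0]; exact Submodule.mem_span_singleton_self _
    · obtain ⟨k, hk0, hki⟩ : ∃ k : Fin 3, k ≠ 0 ∧ k ≠ i := by
        revert h0
        fin_cases i
        · intro h; exact absurd rfl h
        · intro _; exact ⟨2, by decide, by decide⟩
        · intro _; exact ⟨1, by decide, by decide⟩
      exact p4_line hS hR (hy4 k) (hy0 k) (hy4 0) (hy0 0) (hy4 i) (hyy k 0 hk0) (hyy k i hki)
  obtain ⟨w, hw⟩ : ∃ w, w = y 0 := ⟨_, rfl⟩
  have hw0 : w ≠ 0 := by rw [hw]; exact hy0 0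
  have hw4 : w ∈ p4 r := by rw [hw]; exact hy4 0
  obtain ⟨b, hb⟩ := Submodule.mem_span_singleton.1 (h4 1)
  rw [← hw] at hb
  have hb0 : b ≠ 0 := fun h => hy0 1 (by rw [← hb, h, zero_smul])
  have hww : polar Q w w = 0 := by
    have h := hyy 0 1 (by decide)
    rw [← hw, ← hb, polar_smul_right] at h
    exact (smul_eq_zero.1 h).resolve_left hb0
  have hwX0 : w ∈ xs ρ r (Mh 0) 0 := by rw [hw]; exact hyX 0
  have hwX1 : w ∈ xs ρ r (Mh 1) 1 := by
    have h : w = b⁻¹ • y 1 := by rw [← hb, inv_smul_smul₀ hb0]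
    rw [h]
    exact Submodule.smul_mem _ _ (hyX 1)
  have hXw : ∀ k ∈ xs ρ r (Mh 0) 0, k ∈ LinearMap.ker (r 0 - 1) → k ∈ Submodule.span F {w} := by
    intro k hk hk0
    have hk4 : k ∈ p4 r := by
      rw [mem_p4]
      intro j
      by_cases hj : 0 = j
      · rw [← hj]; exact hk0
      · exact h2 0 j hj k hk
    refine p4_line hS hR (hy4 1) (hy0 1) hw4 hw0 hk4 ?_ ?_
    · rw [hw]; exact hyy 1 0 (by decide)
    · rw [polar_comm]; exact h2' 0 1 (by decide) k hk _ (hyX 1)
  -- step 5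
  have hQw : Q w ≠ 0 := by
    intro hQ
    apply not_triv (f := f) hS hR 0 (hD.perf 0) (hD.mem 0)
    intro h hh v hv
    refine RAD (hMp 0) hR.irr (hR.dim 0) (fun _ hv => rs_mem 0 hv) (fun v _ => hR.iso 0 v) (hR.quad 0) (rs_ne hS hR 0)
      (hR.compl 0) (mem_p4.1 hw4 0) hQ (fun v hv => rs_perp_ker hR 0 hv (mem_p4.1 hw4 0)) (fun h _ v => hS.iso h v) ?_ ?_ h hh v
      (Submodule.mem_sup_left hv)
    · intro h hh v hv
      obtain ⟨p, hp, k, hk, e⟩ := rs_split hR 0 (ρ h v)
      have hkX : k ∈ xs ρ r (Mh 0) 0 := by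
        have e1 : k = ρ h v - p := by rw [e]; abel
        rw [e1]
        exact Submodule.sub_mem _ (mem_xs hh hv) (le_xs hp)
      rw [e]
      exact Submodule.add_mem _ (Submodule.mem_sup_left hp) (Submodule.mem_sup_right (hXw k hkX hk))
    · intro h hh
      rw [h1 1 h (hML 1 0 (by decide) hh) w hwX1]
      exact Submodule.mem_span_singleton_self w
  -- step 6
  have h6 : ∀ x ∈ hat π ((⊤ : Subgroup G).map f), ρ x w = w := by
    refine fix_of_fl hS ?_
    rw [← hD.top]
    exact sup_le (le_fl hS (hD.rot.perf 0) fun x hx => h1 0 x hx w hwX0) (le_fl hS (hD.rot.perf 1) fun x hx => h1 1 x hx w hwX1)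
  refine ⟨w, hQw, fun v => ⟨fun hv => ?_, fun hv x hx => ?_⟩⟩
  · -- step 7
    have hv4 : v ∈ p4 r := by
      rw [mem_p4]
      intro i
      obtain ⟨h, hh, he⟩ := exists_lift (f := f) hS (hD.perf i) (hD.mem i)
      exact fix_ker hR i he (hv h (hat_mono (Subgroup.map_mono le_top) hh))
    refine p4_line hS hR hw4 hw0 hw4 hw0 hv4 hww ?_
    exact xs_perp hS (fun m hm => hv m (hat_mono (Subgroup.map_mono le_top) hm))
      (fun u hu => rs_perp_ker hR 0 hu (mem_p4.1 hv4 0)) hwX0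
  · obtain ⟨a, rfl⟩ := Submodule.mem_span_singleton.1 hv
    rw [map_smul, h6 x hx]

end Cfsg.Agent.H332.O8R
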