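import Cfsg.Agent.H953.O8R.Sys

/-!
# S3691, row `PΩ⁺₈(q)`: SPIN: perfect groups acting on anisotropic planes (helper332)

`o2` : a perfect group of isometries of an anisotropic plane is trivial; `c2` : a perfect group on a plane commuting with an
irreducible endomorphism is trivial; `rad` : the same on an anisotropic plane extended by a singular vector of the radical.
-/

set_option autoImplicit false
set_option linter.unusedSectionVars false

namespace Cfsg.Agent.H332.O8R

open Module QuadraticMap Cfsg.Agent.H953.O8R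
open scoped commutatorElement

section alg

variable {F U : Type*} [Field F] [AddCommGroup U] [Module F U] {c : F}

theorem nf_ne (irr : ∀ x : F, x * x - c * x + 1 ≠ 0) {a b : F} (h : a ≠ 0 ∨ b ≠ 0) : a * a + c * a * b + b * b ≠ 0 := by
  by_cases hb : b = 0
  · subst hb
    have ha : a ≠ 0 := by simpa using h
    simpa using ha
  · intro h0
    apply irr (-(a / b))
    field_simp
    linear_combination h0

/-- the two solutions -/
theorem dichot (irr : ∀ x : F, x * x - c * x + 1 ≠ 0) {a b : F} (h1 : 2 * a + b * c = c)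
    (h2 : a * a + c * a * b + b * b = 1) : (a = 0 ∧ b = 1) ∨ (a = c ∧ b = -1) := by
  by_cases h20 : (2 : F) = 0
  · have hc : c ≠ 0 := fun h => irr 1 (by rw [h]; linear_combination h20)
    have hb : b = 1 := by
      have h3 : (b - 1) * c = 0 := by linear_combination h1 - a * h20
      rcases mul_eq_zero.1 h3 with h | h
      · exact sub_eq_zero.1 h
      · exact absurd h hc
    subst hb
    have h4 : a * (a + c) = 0 := by linear_combination h2
    rcases mul_eq_zero.1 h4 with h | h
    · exact Or.inl ⟨h, rfl⟩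
    · refine Or.inr ⟨?_, ?_⟩
      · linear_combination h - c * h20
      · linear_combination h20
  · have h3 : (1 - b) * (1 + b) * (c * c - 4) = 0 := by
      linear_combination 4 * h2 - (2 * a + c * (1 - b) + 2 * c * b) * h1
    have hc4 : c * c - 4 ≠ 0 := by
      intro h
      apply irr (c / 2)
      field_simp
      linear_combination -h
    rcases mul_eq_zero.1 h3 with h | h
    · rcases mul_eq_zero.1 h with h | h
      · have hb : b = 1 := by linear_combination -h
        subst hb
        refine Or.inl ⟨?_, rfl⟩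
        have : (2 : F) * a = 0 := by linear_combination h1
        exact (mul_eq_zero.1 this).resolve_left h20
      · have hb : b = -1 := by linear_combination h
        subst hb
        refine Or.inr ⟨?_, rfl⟩
        have : (2 : F) * (a - c) = 0 := by linear_combination h1
        exact sub_eq_zero.1 ((mul_eq_zero.1 this).resolve_left h20)
    · exact absurd h hc4

theorem polar_map {q : QuadraticForm F U} {z : Module.End F U} (hz : ∀ v, q (z v) = q v) (v w : U) :
    polar q (z v) (z w) = polar q v w := by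
  unfold polar
  rw [← map_add, hz, hz, hz]

theorem polar_z (irr : ∀ x : F, x * x - c * x + 1 ≠ 0) {q : QuadraticForm F U} {z : Module.End F U}
    (hz : ∀ v, q (z v) = q v) (hz2 : ∀ v, z (z v) = c • z v - v) (v : U) : polar q v (z v) = c * q v := by
  have e1 : q (z (z v)) = q v := by rw [hz, hz]
  have e2 : q (c • z v - v) = c * c * q v + q v - c * polar q v (z v) := by
    rw [sub_eq_add_neg, QuadraticMap.map_add q, QuadraticMap.map_smul, QuadraticMap.map_neg, polar_neg_right,
      polar_smul_left, hz, polar_comm q (z v) v]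
    simp only [smul_eq_mul]
    ring
  rw [hz2, e2] at e1
  have e3 : polar q (z v) (z (z v)) = polar q v (z v) := polar_map hz v (z v)
  rw [hz2, sub_eq_add_neg, polar_add_right, polar_neg_right, polar_smul_right, polar_self, hz, polar_comm q (z v) v] at e3
  simp only [smul_eq_mul] at e3
  by_cases h20 : (2 : F) = 0
  · have hc : c ≠ 0 := fun h => irr 1 (by rw [h]; linear_combination h20)
    apply mul_left_cancel₀ hc
    linear_combination -e1
  · apply mul_left_cancel₀ h20
    linear_combination -e3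

theorem q_comb (irr : ∀ x : F, x * x - c * x + 1 ≠ 0) {q : QuadraticForm F U} {z : Module.End F U}
    (hz : ∀ v, q (z v) = q v) (hz2 : ∀ v, z (z v) = c • z v - v) (v : U) (a b : F) :
    q (a • v + b • z v) = q v * (a * a + c * a * b + b * b) := by
  rw [QuadraticMap.map_add q, QuadraticMap.map_smul, QuadraticMap.map_smul, polar_smul_left, polar_smul_right, hz,
    polar_z irr hz hz2]
  simp only [smul_eq_mul]
  ring

theorem li (irr : ∀ x : F, x * x - c * x + 1 ≠ 0) {z : Module.End F U} (hz2 : ∀ v, z (z v) = c • z v - v) {v : U}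
    (hv : v ≠ 0) : LinearIndependent F ![v, z v] := by
  rw [LinearIndependent.pair_iff]
  intro a b h
  by_cases hb : b = 0
  · subst hb
    rw [zero_smul, add_zero] at h
    exact ⟨(smul_eq_zero.1 h).resolve_right hv, rfl⟩
  · exfalso
    have h1 : z v = (-(a / b)) • v := by
      have h2 : b • z v = -(a • v) := by rw [eq_neg_iff_add_eq_zero, add_comm]; exact h
      rw [← inv_smul_smul₀ hb (z v), h2, smul_neg, smul_smul, neg_smul, div_eq_inv_mul]
    have h2 := hz2 v
    obtain ⟨x, hx⟩ : ∃ x, x = -(a / b) := ⟨_, rfl⟩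
    rw [← hx] at h1
    rw [h1, map_smul, h1, smul_smul, smul_smul] at h2
    have h3 : (x * x - c * x + 1) • v = 0 := by
      rw [add_smul, sub_smul, one_smul, h2]
      abel
    exact irr x ((smul_eq_zero.1 h3).resolve_right hv)

theorem exists_comb [FiniteDimensional F U] (irr : ∀ x : F, x * x - c * x + 1 ≠ 0) {z : Module.End F U}
    (hz2 : ∀ v, z (z v) = c • z v - v) (hU : finrank F U = 2) {v : U} (hv : v ≠ 0) (u : U) :
    ∃ a b : F, u = a • v + b • z v := by
  have h1 := (li irr hz2 hv).span_eq_top_of_card_eq_finrank (by rw [hU]; rfl)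
  have h2 : u ∈ Submodule.span F (Set.range ![v, z v]) := by rw [h1]; exact Submodule.mem_top
  rw [Matrix.range_cons, Matrix.range_cons, Matrix.range_empty, Set.union_empty, Set.singleton_union,
    Submodule.mem_span_pair] at h2
  obtain ⟨a, b, h⟩ := h2
  exact ⟨a, b, h.symm⟩

/-- an endomorphism commuting with `z` -/
theorem comm_of_comm [FiniteDimensional F U] (irr : ∀ x : F, x * x - c * x + 1 ≠ 0) {z : Module.End F U}
    (hz2 : ∀ v, z (z v) = c • z v - v) (hU : finrank F U = 2) {x y : Module.End F U} (hx : x * z = z * x)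
    (hy : y * z = z * y) : x * y = y * x := by
  have : Nontrivial U := Module.nontrivial_of_finrank_pos (R := F) (by omega)
  obtain ⟨v, hv⟩ := exists_ne (0 : U)
  have hx' : ∀ w, x (z w) = z (x w) := fun w => LinearMap.congr_fun hx w
  have hy' : ∀ w, y (z w) = z (y w) := fun w => LinearMap.congr_fun hy w
  obtain ⟨a, b, hab⟩ := exists_comb irr hz2 hU hv (x v)
  obtain ⟨a', b', hab'⟩ := exists_comb irr hz2 hU hv (y v)
  have hv1 : x (y v) = y (x v) := by
    rw [hab', hab, map_add, map_add, map_smul, map_smul, map_smul, map_smul, hx', hy', hab, hab', map_add, map_add, map_smul,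
      map_smul, map_smul, map_smul]
    simp only [smul_add, smul_smul]
    rw [mul_comm a' a, mul_comm b' b, mul_comm a' b, mul_comm b' a]
    abel
  refine LinearMap.ext fun w => ?_
  obtain ⟨e, f, rfl⟩ := exists_comb irr hz2 hU hv w
  rw [Module.End.mul_apply, Module.End.mul_apply, map_add, map_add, map_smul, map_smul, map_smul, map_smul, map_add, map_add,
    map_smul, map_smul, map_smul, map_smul, hx', hy', hx', hy', hv1]

/-- **C2** -/
theorem c2 [FiniteDimensional F U] {H : Type*} [Group H] (hH : commutator H = ⊤) (irr : ∀ x : F, x * x - c * x + 1 ≠ 0)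
    {z : Module.End F U} (hz2 : ∀ v, z (z v) = c • z v - v) (hU : finrank F U = 2) (σ : H →* Module.End F U)
    (hσ : ∀ h, σ h * z = z * σ h) (h : H) : σ h = 1 :=
  triv_of_comm hH σ (fun a b => comm_of_comm irr hz2 hU (hσ a) (hσ b)) h

/-- **O2** -/
theorem o2 [FiniteDimensional F U] {H : Type*} [Group H] (hH : commutator H = ⊤) (irr : ∀ x : F, x * x - c * x + 1 ≠ 0)
    {q : QuadraticForm F U} {z : Module.End F U} (hz : ∀ v, q (z v) = q v) (hz2 : ∀ v, z (z v) = c • z v - v)
    (hU : finrank F U = 2) (hq : ∃ v, q v ≠ 0) (σ : H →* Module.End F U) (hσ : ∀ h v, q (σ h v) = q v) (h : H) :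
    σ h = 1 := by
  obtain ⟨v, hv⟩ := hq
  have hv0 : v ≠ 0 := fun h => hv (by rw [h, QuadraticMap.map_zero])
  -- isometries with the same equation
  have key : ∀ x : Module.End F U, (∀ v, q (x v) = q v) → (∀ v, x (x v) = c • x v - v) → x = z ∨ x = c • 1 - z := by
    intro x hx hx2
    obtain ⟨a, b, hab⟩ := exists_comb irr hz2 hU hv0 (x v)
    have e1 : a * a + c * a * b + b * b = 1 := by
      have e2 := hx v
      rw [hab, q_comb irr hz hz2] at e2
      exact mul_left_cancel₀ hv (by rw [e2, mul_one])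
    have e2 : 2 * a + b * c = c := by
      have e3 := polar_z irr hx hx2 v
      rw [hab, polar_add_right, polar_smul_right, polar_smul_right, polar_self, polar_z irr hz hz2] at e3
      simp only [smul_eq_mul] at e3
      apply mul_right_cancel₀ hv
      linear_combination e3
    have ext : ∀ y : Module.End F U, (∀ v, y (y v) = c • y v - v) → x v = y v → x = y := by
      intro y hy hxy
      refine LinearMap.ext fun w => ?_
      obtain ⟨e, f, rfl⟩ := exists_comb irr hy hU hv0 w
      rw [map_add, map_add, map_smul, map_smul, map_smul, map_smul, hxy, ← hxy, hx2, hxy, hy]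
    rcases dichot irr e2 e1 with ⟨ha, hb⟩ | ⟨ha, hb⟩
    · left
      apply ext z hz2
      rw [hab, ha, hb, zero_smul, one_smul, zero_add]
    · right
      apply ext
      · intro w
        simp only [LinearMap.sub_apply, LinearMap.smul_apply, Module.End.one_apply, map_sub, map_smul, hz2, smul_sub]
        abel
      · rw [hab, ha, hb]
        simp only [LinearMap.sub_apply, LinearMap.smul_apply, Module.End.one_apply, neg_smul, one_smul]
        abel
  have hinv : ∀ (g : H) (w : U), σ g⁻¹ (σ g w) = w := fun g w => by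
    rw [← Module.End.mul_apply, ← map_mul, inv_mul_cancel, map_one, Module.End.one_apply]
  have hinv' : ∀ (g : H) (w : U), σ g (σ g⁻¹ w) = w := fun g w => by
    rw [← Module.End.mul_apply, ← map_mul, mul_inv_cancel, map_one, Module.End.one_apply]
  have hcj : ∀ g : H, σ g * z * σ g⁻¹ = z ∨ σ g * z * σ g⁻¹ = c • 1 - z := by
    intro g
    apply key
    · intro w
      rw [Module.End.mul_apply, Module.End.mul_apply, hσ, hz, hσ]
    · intro w
      simp only [Module.End.mul_apply]
      rw [hinv, hz2, map_sub, map_smul, hinv']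
  have hcj2 : ∀ g : H, σ g * z = z * σ g ∨ σ g * z = (c • 1 - z) * σ g := by
    intro g
    have e : σ g * z = (σ g * z * σ g⁻¹) * σ g := by
      refine LinearMap.ext fun w => ?_
      simp only [Module.End.mul_apply]
      rw [hinv]
    rcases hcj g with h | h
    · left; rw [e, h]
    · right; rw [e, h]
  -- commutators commute with `z`
  have hcom : ∀ g, σ g * z = z * σ g := by
    let N : Subgroup H :=
      { carrier := {g | σ g * z = z * σ g}
        one_mem' := by show σ 1 * z = z * σ 1; rw [map_one, one_mul, mul_one]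
        mul_mem' := fun {a b} (ha : σ a * z = z * σ a) (hb : σ b * z = z * σ b) => by
          show σ (a * b) * z = z * σ (a * b)
          rw [map_mul, mul_assoc, hb, ← mul_assoc, ha, mul_assoc]
        inv_mem' := fun {a} (ha : σ a * z = z * σ a) => by
          show σ a⁻¹ * z = z * σ a⁻¹
          refine LinearMap.ext fun w => ?_
          simp only [Module.End.mul_apply]
          have h1 := LinearMap.congr_fun ha (σ a⁻¹ w)
          simp only [Module.End.mul_apply] at h1
          rw [hinv'] at h1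
          rw [← hinv a (z (σ a⁻¹ w)), h1] }
    have h1 : commutator H ≤ N := by
      rw [commutator_def, Subgroup.commutator_le]
      intro g _ k _
      -- `⁅g, k⁆ (k g) = g k`
      have hz' : ∀ g : H, σ g * z = z * σ g → σ g * (c • 1 - z) = (c • 1 - z) * σ g := by
        intro g hg
        rw [mul_sub, sub_mul, hg, mul_smul_comm, smul_mul_assoc, mul_one, one_mul]
      have hz'' : ∀ g : H, σ g * z = (c • 1 - z) * σ g → σ g * (c • 1 - z) = z * σ g := by
        intro g hg
        rw [mul_sub, hg, mul_smul_comm, mul_one, sub_mul, smul_mul_assoc, one_mul]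
        abel
      have hgk : (σ (g * k) * z = z * σ (g * k) ∧ σ (k * g) * z = z * σ (k * g)) ∨
          (σ (g * k) * z = (c • 1 - z) * σ (g * k) ∧ σ (k * g) * z = (c • 1 - z) * σ (k * g)) := by
        rcases hcj2 g with hg | hg <;> rcases hcj2 k with hk | hk
        · left
          constructor
          · rw [map_mul, mul_assoc, hk, ← mul_assoc, hg, mul_assoc]
          · rw [map_mul, mul_assoc, hg, ← mul_assoc, hk, mul_assoc]
        · right
          constructor
          · rw [map_mul, mul_assoc, hk, ← mul_assoc, hz' g hg, mul_assoc]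
          · rw [map_mul, mul_assoc, hg, ← mul_assoc, hk, mul_assoc]
        · right
          constructor
          · rw [map_mul, mul_assoc, hk, ← mul_assoc, hg, mul_assoc]
          · rw [map_mul, mul_assoc, hg, ← mul_assoc, hz' k hk, mul_assoc]
        · left
          constructor
          · rw [map_mul, mul_assoc, hk, ← mul_assoc, hz'' g hg, mul_assoc]
          · rw [map_mul, mul_assoc, hg, ← mul_assoc, hz'' k hk, mul_assoc]
      show σ ⁅g, k⁆ * z = z * σ ⁅g, k⁆
      have e : g * k = ⁅g, k⁆ * (k * g) := by rw [commutatorElement_def]; group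
      have e' : σ (g * k) = σ ⁅g, k⁆ * σ (k * g) := by rw [← map_mul, ← e]
      have hcan : ∀ x y : Module.End F U, x * σ (k * g) = y * σ (k * g) → x = y := by
        intro x y hxy
        refine LinearMap.ext fun w => ?_
        have := LinearMap.congr_fun hxy (σ (k * g)⁻¹ w)
        simp only [Module.End.mul_apply] at this
        rwa [hinv'] at this
      apply hcan
      rcases hgk with ⟨h1, h2⟩ | ⟨h1, h2⟩
      · rw [mul_assoc, ← h2, ← mul_assoc, ← e', h1, e', mul_assoc]
      · -- use `z' = c - z`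
        have h3 : σ (k * g) * (c • 1 - z) = z * σ (k * g) := hz'' _ h2
        have h4 : σ (g * k) * (c • 1 - z) = z * σ (g * k) := hz'' _ h1
        rw [mul_assoc, ← h3, ← mul_assoc, ← e', h4, e', mul_assoc]
    intro g
    have h2 : g ∈ commutator H := by rw [hH]; exact Subgroup.mem_top g
    exact h1 h2
  exact c2 hH irr hz2 hU σ hcom h

end alg

section planes

variable {F V Γ : Type} [Field F] [AddCommGroup V] [Module F V] [FiniteDimensional F V] [Group Γ] {Q : QuadraticForm F V}
  {ρ : Γ →* Module.End F V} {H : Subgroup Γ} {P K : Submodule F V} {z : Module.End F V} {c : F}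

/-- the form on a subspace -/
def res (Q : QuadraticForm F V) (P : Submodule F V) : QuadraticForm F P := Q.comp P.subtype

theorem res_apply (v : P) : res Q P v = Q v := rfl

/-- **C2** in `V` -/
theorem C2 (hH : ⁅H, H⁆ = H) (irr : ∀ x : F, x * x - c * x + 1 ≠ 0) (hP : finrank F P = 2) (hzP : ∀ v ∈ P, z v ∈ P)
    (hz2 : ∀ v ∈ P, z (z v) = c • z v - v) (hinv : ∀ h ∈ H, ∀ v ∈ P, ρ h v ∈ P)
    (hcom : ∀ h ∈ H, ∀ v ∈ P, ρ h (z v) = z (ρ h v)) : ∀ h ∈ H, ∀ v ∈ P, ρ h v = v := by
  intro h hh v hv
  have h1 := c2 (U := P) (comm_top hH) irr (z := z.restrict hzP) (fun v => Subtype.ext (hz2 v v.2)) hP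
    (subRep (ρ.comp H.subtype) P (fun g x hx => hinv g g.2 x hx))
    (fun g => LinearMap.ext fun v => Subtype.ext (hcom g g.2 v v.2)) ⟨h, hh⟩
  exact congrArg Subtype.val (LinearMap.congr_fun h1 ⟨v, hv⟩)

/-- **O2** in `V` -/
theorem O2 (hH : ⁅H, H⁆ = H) (irr : ∀ x : F, x * x - c * x + 1 ≠ 0) (hP : finrank F P = 2) (hzP : ∀ v ∈ P, z v ∈ P)
    (hz : ∀ v ∈ P, Q (z v) = Q v) (hz2 : ∀ v ∈ P, z (z v) = c • z v - v) (hq : ∃ v ∈ P, Q v ≠ 0)
    (hiso : ∀ h ∈ H, ∀ v ∈ P, Q (ρ h v) = Q v) (hinv : ∀ h ∈ H, ∀ v ∈ P, ρ h v ∈ P) :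
    ∀ h ∈ H, ∀ v ∈ P, ρ h v = v := by
  intro h hh v hv
  obtain ⟨v0, hv0, hq0⟩ := hq
  have h1 := o2 (U := P) (comm_top hH) irr (q := res Q P) (z := z.restrict hzP) (fun v => hz v v.2)
    (fun v => Subtype.ext (hz2 v v.2)) hP ⟨⟨v0, hv0⟩, hq0⟩ (subRep (ρ.comp H.subtype) P (fun g x hx => hinv g g.2 x hx))
    (fun g v => hiso g g.2 v v.2) ⟨h, hh⟩
  exact congrArg Subtype.val (LinearMap.congr_fun h1 ⟨v, hv⟩)

/-- **RAD** -/
theorem RAD (hH : ⁅H, H⁆ = H) (irr : ∀ x : F, x * x - c * x + 1 ≠ 0) (hP : finrank F P = 2) (hzP : ∀ v ∈ P, z v ∈ P)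
    (hz : ∀ v ∈ P, Q (z v) = Q v) (hz2 : ∀ v ∈ P, z (z v) = c • z v - v) (hq : ∃ v ∈ P, Q v ≠ 0)
    (hPK : IsCompl P K) {y : V} (hyK : y ∈ K) (hQy : Q y = 0) (hyP : ∀ v ∈ P, polar Q v y = 0)
    (hiso : ∀ h ∈ H, ∀ v, Q (ρ h v) = Q v) (hinv : ∀ h ∈ H, ∀ v ∈ P, ρ h v ∈ P ⊔ Submodule.span F {y})
    (hinvy : ∀ h ∈ H, ρ h y ∈ Submodule.span F {y}) : ∀ h ∈ H, ∀ v ∈ P ⊔ Submodule.span F {y}, ρ h v = v := by
  -- `y` is fixed
  have hy1 : ∀ h ∈ H, ρ h y = y := by
    intro h hh
    have h1 := triv_of_comm (comm_top hH) (subRep (ρ.comp H.subtype) (Submodule.span F {y}) (fun g x hx => by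
      obtain ⟨a, rfl⟩ := Submodule.mem_span_singleton.1 hx
      rw [map_smul]
      exact Submodule.smul_mem _ _ (hinvy g g.2))) (fun a b => by
        apply comm_of_finrank_le_one
        exact (finrank_span_le_card ({y} : Set V)).trans (by simp)) ⟨h, hh⟩
    exact congrArg Subtype.val (LinearMap.congr_fun h1 ⟨y, Submodule.mem_span_singleton_self y⟩)
  -- the action modulo `y`
  have hdec : ∀ h ∈ H, ∀ v ∈ P, ∃ p ∈ P, ∃ a : F, ρ h v = p + a • y := by
    intro h hh v hv
    obtain ⟨p, hp, w, hw, e⟩ := Submodule.mem_sup.1 (hinv h hh v hv)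
    obtain ⟨a, rfl⟩ := Submodule.mem_span_singleton.1 hw
    exact ⟨p, hp, a, e.symm⟩
  have hpr : ∀ p (hp : p ∈ P) (a : F), P.projectionOnto K hPK (p + a • y) = ⟨p, hp⟩ := by
    intro p hp a
    rw [map_add, map_smul, Submodule.projectionOnto_apply_of_mem_right hPK hyK, smul_zero, add_zero]
    exact Submodule.projectionOnto_apply_left hPK ⟨p, hp⟩
  let σ : H →* Module.End F P :=
    { toFun := fun h => (P.projectionOnto K hPK) ∘ₗ (ρ h) ∘ₗ P.subtype
      map_one' := by
        refine LinearMap.ext fun v => ?_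
        show P.projectionOnto K hPK (ρ ((1 : H) : Γ) v) = v
        rw [Subgroup.coe_one, map_one, Module.End.one_apply]
        exact Submodule.projectionOnto_apply_left hPK v
      map_mul' := by
        rintro ⟨g, hg⟩ ⟨h, hh⟩
        refine LinearMap.ext fun v => ?_
        show P.projectionOnto K hPK (ρ (g * h) v) =
          P.projectionOnto K hPK (ρ g (P.projectionOnto K hPK (ρ h v) : P))
        obtain ⟨p, hp, a, e⟩ := hdec h hh v v.2
        rw [map_mul, Module.End.mul_apply, e, hpr p hp, map_add, map_smul, hy1 g hg]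
        obtain ⟨p', hp', a', e'⟩ := hdec g hg p hp
        rw [e', add_assoc, ← add_smul, hpr p' hp', hpr p' hp'] }
  have hσ : ∀ h (hh : h ∈ H) (v : P), σ ⟨h, hh⟩ v = P.projectionOnto K hPK (ρ h v) := fun _ _ _ => rfl
  obtain ⟨v0, hv0, hq0⟩ := hq
  have h1 : ∀ h, σ h = 1 := by
    refine o2 (U := P) (comm_top hH) irr (q := res Q P) (z := z.restrict hzP) (fun v => hz v v.2)
      (fun v => Subtype.ext (hz2 v v.2)) hP ⟨⟨v0, hv0⟩, hq0⟩ σ ?_
    rintro ⟨h, hh⟩ v
    obtain ⟨p, hp, a, e⟩ := hdec h hh v v.2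
    rw [hσ, e, hpr p hp, res_apply, res_apply]
    have e2 := hiso h hh v
    rw [e, QuadraticMap.map_add Q, QuadraticMap.map_smul, hQy, polar_smul_right, hyP p hp] at e2
    simpa using e2
  have h2 : ∀ h ∈ H, ∀ v ∈ P, ∃ a : F, ρ h v = v + a • y := by
    intro h hh v hv
    obtain ⟨p, hp, a, e⟩ := hdec h hh v hv
    have e2 := congrArg Subtype.val (LinearMap.congr_fun (h1 ⟨h, hh⟩) ⟨v, hv⟩)
    rw [hσ] at e2
    have e3 : ((P.projectionOnto K hPK (ρ h v) : P) : V) = v := e2
    rw [e, hpr p hp] at e3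
    have e4 : p = v := e3
    exact ⟨a, by rw [e, e4]⟩
  have hXi : ∀ g : H, ∀ x ∈ P ⊔ Submodule.span F {y}, (ρ.comp H.subtype) g x ∈ P ⊔ Submodule.span F {y} := by
    rintro ⟨g, hg⟩ x hx
    obtain ⟨p, hp, w, hw, rfl⟩ := Submodule.mem_sup.1 hx
    obtain ⟨a, rfl⟩ := Submodule.mem_span_singleton.1 hw
    show ρ g (p + a • y) ∈ _
    rw [map_add, map_smul, hy1 g hg]
    exact Submodule.add_mem _ (hinv g hg p hp) (Submodule.mem_sup_right (Submodule.smul_mem _ _ (Submodule.mem_span_singleton_self y)))
  intro h hh v hv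
  have h3 := unip (comm_top hH) (subRep (ρ.comp H.subtype) (P ⊔ Submodule.span F {y}) hXi)
    ((Submodule.span F {y}).comap (P ⊔ Submodule.span F {y}).subtype) (by
      rintro ⟨g, hg⟩ ⟨x, hx⟩ hxy
      apply Subtype.ext
      show ρ g x = x
      obtain ⟨a, rfl⟩ := Submodule.mem_span_singleton.1 (Submodule.mem_comap.1 hxy : x ∈ Submodule.span F {y})
      rw [map_smul, hy1 g hg]) (by
      rintro ⟨g, hg⟩ ⟨x, hx⟩
      show ρ g x - x ∈ Submodule.span F {y}
      obtain ⟨p, hp, w, hw, rfl⟩ := Submodule.mem_sup.1 hx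
      obtain ⟨a, rfl⟩ := Submodule.mem_span_singleton.1 hw
      obtain ⟨b, hb⟩ := h2 g hg p hp
      rw [map_add, map_smul, hy1 g hg, hb]
      have e : p + b • y + a • y - (p + a • y) = b • y := by abel
      rw [e]
      exact Submodule.smul_mem _ _ (Submodule.mem_span_singleton_self y)) ⟨h, hh⟩
  exact congrArg Subtype.val (LinearMap.congr_fun h3 ⟨v, hv⟩)

end planes

end Cfsg.Agent.H332.O8R
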