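import Cfsg.Agent.H332.O8R.Planes

/-!
# S3691, row `PΩ⁺₈(q)`: SPIN: facts common to `geo_sp` and `geo_om` (helper332)
-/

set_option autoImplicit false
set_option linter.unusedSectionVars false

namespace Cfsg.Agent.H332.O8R

open Module QuadraticMap Cfsg.Agent.H953.O8R
open scoped commutatorElement

variable {F V Γ T G : Type} [Field F] [Fintype F] [AddCommGroup V] [Module F V] [FiniteDimensional F V] [Group Γ] [Group T] [Group G]
  {Q : QuadraticForm F V} {ρ : Γ →* Module.End F V} {π : Γ →* T} {f : G →* T} {t : Fin 3 → G}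
  {L : Fin 3 → Subgroup G} {r : Fin 3 → Module.End F V} {c : F}

theorem sys_polar (hS : Sys Q ρ π) (g : Γ) (u v : V) : polar Q (ρ g u) (ρ g v) = polar Q u v := by
  unfold polar
  rw [← map_add, hS.iso, hS.iso, hS.iso]

theorem rho_inv (ρ : Γ →* Module.End F V) (g : Γ) (v : V) : ρ g⁻¹ (ρ g v) = v := by
  rw [← Module.End.mul_apply, ← map_mul, inv_mul_cancel, map_one, Module.End.one_apply]

theorem rho_inv' (ρ : Γ →* Module.End F V) (g : Γ) (v : V) : ρ g (ρ g⁻¹ v) = v := by
  rw [← Module.End.mul_apply, ← map_mul, mul_inv_cancel, map_one, Module.End.one_apply]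

theorem sys_polar_inv (hS : Sys Q ρ π) (g : Γ) (u v : V) : polar Q (ρ g u) v = polar Q u (ρ g⁻¹ v) := by
  rw [← sys_polar hS g u, rho_inv']

theorem perf_map (f : G →* T) {M : Subgroup G} (hM : ⁅M, M⁆ = M) : ⁅M.map f, M.map f⁆ = M.map f := by
  rw [← Subgroup.map_commutator, hM]

/-- lifts in the perfect cover of `M` -/
theorem exists_lift (hS : Sys Q ρ π) {M : Subgroup G} (hM : ⁅M, M⁆ = M) {x : G} (hx : x ∈ M) :
    ∃ h ∈ hat π (M.map f), π h = f x :=
  exists_hat hS.surj (perf_map f hM) (Subgroup.mem_map_of_mem f hx)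

theorem hat_perf' (hS : Sys Q ρ π) {M : Subgroup G} (hM : ⁅M, M⁆ = M) :
    ⁅hat π (M.map f), hat π (M.map f)⁆ = hat π (M.map f) :=
  hat_perf (hS.central) hS.surj (perf_map f hM)

/-- the elements of `G` with a lift fixing `v` -/
def fl (ρ : Γ →* Module.End F V) (π : Γ →* T) (f : G →* T) (v : V) : Subgroup G where
  carrier := {g | ∃ x : Γ, π x = f g ∧ ρ x v = v}
  one_mem' := ⟨1, by rw [map_one, map_one], by rw [map_one, Module.End.one_apply]⟩
  mul_mem' := by
    rintro g g' ⟨x, hx, hv⟩ ⟨x', hx', hv'⟩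
    exact ⟨x * x', by rw [map_mul, map_mul, hx, hx'], by rw [map_mul, Module.End.mul_apply, hv', hv]⟩
  inv_mem' := by
    rintro g ⟨x, hx, hv⟩
    refine ⟨x⁻¹, by rw [map_inv, map_inv, hx], ?_⟩
    conv_lhs => rw [← hv]
    exact rho_inv ρ x v

theorem mem_fl {v : V} {g : G} : g ∈ fl ρ π f v ↔ ∃ x : Γ, π x = f g ∧ ρ x v = v := Iff.rfl

/-- a perfect subgroup whose perfect lift fixes `v` -/
theorem le_fl (hS : Sys Q ρ π) {M : Subgroup G} (hM : ⁅M, M⁆ = M) {v : V} (h : ∀ x ∈ hat π (M.map f), ρ x v = v) :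
    M ≤ fl ρ π f v := by
  intro g hg
  obtain ⟨x, hx, he⟩ := exists_lift (f := f) hS hM hg
  exact ⟨x, he, h x hx⟩

/-- the lift of a subgroup of `fl` fixes `v` -/
theorem fix_of_fl (hS : Sys Q ρ π) {K : Subgroup G} {v : V} (hK : K ≤ fl ρ π f v) : ∀ x ∈ hat π (K.map f), ρ x v = v := by
  -- all lifts multiply `v` by a scalar
  have h1 : ∀ x ∈ (K.map f).comap π, ∃ e : F, ρ x v = e • v := by
    intro x hx
    obtain ⟨g, hg, he⟩ := Subgroup.mem_map.1 (Subgroup.mem_comap.1 hx)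
    obtain ⟨y, hy, hv⟩ := hK hg
    obtain ⟨e, hz⟩ := (hS.ker (x * y⁻¹)).1 (by rw [map_mul, map_inv, hy, ← he, mul_inv_cancel])
    refine ⟨e, ?_⟩
    have e1 : x = x * y⁻¹ * y := by group
    rw [e1, map_mul, Module.End.mul_apply, hv, hz]
  let N : Subgroup Γ :=
    { carrier := {x | ρ x v = v}
      one_mem' := by show ρ 1 v = v; rw [map_one, Module.End.one_apply]
      mul_mem' := fun {a b} (ha : ρ a v = v) (hb : ρ b v = v) => by
        show ρ (a * b) v = v
        rw [map_mul, Module.End.mul_apply, hb, ha]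
      inv_mem' := fun {a} (ha : ρ a v = v) => by
        show ρ a⁻¹ v = v
        conv_lhs => rw [← ha]
        exact rho_inv ρ a v }
  have h2 : hat π (K.map f) ≤ N := by
    rw [hat, Subgroup.commutator_le]
    intro x hx y hy
    show ρ ⁅x, y⁆ v = v
    obtain ⟨a, ha⟩ := h1 x hx
    obtain ⟨b, hb⟩ := h1 y hy
    have e1 : x * y = ⁅x, y⁆ * (y * x) := by rw [commutatorElement_def]; group
    have e2 : ρ (x * y) v = (a * b) • v := by
      rw [map_mul, Module.End.mul_apply, hb, map_smul, ha, smul_smul, mul_comm]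
    have e3 : ρ (y * x) v = (a * b) • v := by
      rw [map_mul, Module.End.mul_apply, ha, map_smul, hb, smul_smul]
    rw [e1, map_mul, Module.End.mul_apply, e3, map_smul] at e2
    by_cases hab : a * b = 0
    · have e4 : v = 0 := by
        rw [hab, zero_smul] at e3
        rw [← rho_inv ρ (y * x) v, e3, map_zero]
      rw [e4, map_zero]
    · have e4 := congrArg (fun w => (a * b)⁻¹ • w) e2
      simpa only [inv_smul_smul₀ hab] using e4
  exact fun x hx => h2 hx

theorem rs_mem (i : Fin 3) {v : V} (hv : v ∈ LinearMap.range (r i - 1)) : r i v ∈ LinearMap.range (r i - 1) := by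
  obtain ⟨w, rfl⟩ := hv
  refine ⟨r i w, ?_⟩
  simp only [LinearMap.sub_apply, Module.End.one_apply, map_sub]

theorem ker_iff {i : Fin 3} {v : V} : v ∈ LinearMap.ker (r i - 1) ↔ r i v = v := by
  rw [LinearMap.mem_ker, LinearMap.sub_apply, Module.End.one_apply, sub_eq_zero]

/-- the plane is orthogonal to the fixed space -/
theorem rs_perp_ker (hR : RS Q ρ π f t L r c) (i : Fin 3) {u w : V} (hu : u ∈ LinearMap.range (r i - 1))
    (hw : w ∈ LinearMap.ker (r i - 1)) : polar Q u w = 0 := by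
  obtain ⟨v, rfl⟩ := hu
  rw [ker_iff] at hw
  rw [LinearMap.sub_apply, Module.End.one_apply, sub_eq_add_neg, polar_add_left, polar_neg_left]
  have h1 : polar Q (r i v) (r i w) = polar Q v w := polar_map (hR.iso i) v w
  rw [hw] at h1
  rw [h1]
  ring

theorem rs_split (hR : RS Q ρ π f t L r c) (i : Fin 3) (v : V) :
    ∃ p ∈ LinearMap.range (r i - 1), ∃ k ∈ LinearMap.ker (r i - 1), v = p + k := by
  have h1 : v ∈ LinearMap.range (r i - 1) ⊔ LinearMap.ker (r i - 1) := by
    rw [(hR.compl i).sup_eq_top]; exact Submodule.mem_top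
  obtain ⟨p, hp, k, hk, e⟩ := Submodule.mem_sup.1 h1
  exact ⟨p, hp, k, hk, e.symm⟩

theorem rs_disj (hR : RS Q ρ π f t L r c) (i : Fin 3) {v : V} (h1 : v ∈ LinearMap.range (r i - 1))
    (h2 : v ∈ LinearMap.ker (r i - 1)) : v = 0 :=
  (Submodule.disjoint_def.1 (hR.compl i).disjoint) v h1 h2

/-- the fixed space is the orthogonal complement of the plane -/
theorem mem_ker_iff (hS : Sys Q ρ π) (hR : RS Q ρ π f t L r c) (i : Fin 3) {w : V} :
    w ∈ LinearMap.ker (r i - 1) ↔ ∀ u ∈ LinearMap.range (r i - 1), polar Q u w = 0 := by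
  refine ⟨fun hw u hu => rs_perp_ker hR i hu hw, fun h => ?_⟩
  obtain ⟨p, hp, k, hk, rfl⟩ := rs_split hR i w
  have hp0 : p = 0 := by
    apply hS.nondeg
    intro u
    obtain ⟨p', hp', k', hk', rfl⟩ := rs_split hR i u
    have h1 := h p' hp'
    rw [polar_add_right, rs_perp_ker hR i hp' hk, add_zero] at h1
    rw [polar_add_left, h1, polar_comm Q k' p, rs_perp_ker hR i hp hk', add_zero]
  rw [hp0, zero_add]
  exact hk

/-- the plane contains a nonsingular vector -/
theorem rs_ne (hS : Sys Q ρ π) (hR : RS Q ρ π f t L r c) (i : Fin 3) : ∃ v ∈ LinearMap.range (r i - 1), Q v ≠ 0 := by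
  by_contra hcon
  push Not at hcon
  have h1 : ∀ u ∈ LinearMap.range (r i - 1), u = 0 := by
    intro u hu
    apply rs_disj hR i hu
    rw [mem_ker_iff hS hR]
    intro v hv
    unfold polar
    rw [hcon _ (Submodule.add_mem _ hv hu), hcon _ hv, hcon _ hu]
    ring
  have h2 : LinearMap.range (r i - 1) = ⊥ := (Submodule.eq_bot_iff _).2 h1
  have h3 := hR.dim i
  rw [h2, finrank_bot] at h3
  omega

/-- `± r i` has no nonzero fixed vector in the plane -/
theorem rs_no (hR : RS Q ρ π f t L r c) (i : Fin 3) {e : F} (he : e = 1 ∨ e = -1) {v : V}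
    (hv : v ∈ LinearMap.range (r i - 1)) (h : e • r i v = v) : v = 0 := by
  by_contra hv0
  have hee : e * e = 1 := by rcases he with rfl | rfl <;> ring
  have h1 : r i v = e • v := by
    conv_rhs => rw [← h]
    rw [smul_smul, hee, one_smul]
  have h2 := hR.quad i v hv
  rw [h1, map_smul, h1, smul_smul, smul_smul] at h2
  have h3 : (e * e - c * e + 1) • v = 0 := by
    rw [add_smul, sub_smul, one_smul, h2]
    abel
  exact hR.irr e ((smul_eq_zero.1 h3).resolve_right hv0)

/-- a perfect group acting on the plane is trivial on it -/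
theorem rs_O2 (hS : Sys Q ρ π) (hR : RS Q ρ π f t L r c) (i : Fin 3) {H : Subgroup Γ} (hH : ⁅H, H⁆ = H)
    (hinv : ∀ h ∈ H, ∀ v ∈ LinearMap.range (r i - 1), ρ h v ∈ LinearMap.range (r i - 1)) :
    ∀ h ∈ H, ∀ v ∈ LinearMap.range (r i - 1), ρ h v = v :=
  O2 hH hR.irr (hR.dim i) (fun _ hv => rs_mem i hv) (fun v _ => hR.iso i v) (hR.quad i) (rs_ne hS hR i)
    (fun h _ v _ => hS.iso h v) hinv

/-- a perfect group acting on the plane and commuting with `r i` is trivial on it -/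
theorem rs_C2 (hR : RS Q ρ π f t L r c) (i : Fin 3) {H : Subgroup Γ} (hH : ⁅H, H⁆ = H)
    (hinv : ∀ h ∈ H, ∀ v ∈ LinearMap.range (r i - 1), ρ h v ∈ LinearMap.range (r i - 1))
    (hcom : ∀ h ∈ H, ∀ v ∈ LinearMap.range (r i - 1), ρ h (r i v) = r i (ρ h v)) :
    ∀ h ∈ H, ∀ v ∈ LinearMap.range (r i - 1), ρ h v = v :=
  C2 hH hR.irr (hR.dim i) (fun _ hv => rs_mem i hv) (hR.quad i) hinv hcom

/-- a vector fixed by a lift of `t i` is orthogonal to the plane -/
theorem fix_ker (hR : RS Q ρ π f t L r c) (i : Fin 3) {h : Γ} (hh : π h = f (t i)) {v : V} (hv : ρ h v = v) :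
    v ∈ LinearMap.ker (r i - 1) := by
  obtain ⟨e, he, hr⟩ := hR.lift i h hh
  obtain ⟨p, hp, k, hk, rfl⟩ := rs_split hR i v
  rw [hr, map_add, ker_iff.1 hk, smul_add] at hv
  have h1 : e • r i p - p = 0 := by
    apply rs_disj hR i
    · exact Submodule.sub_mem _ (Submodule.smul_mem _ _ (rs_mem i hp)) hp
    · have h2 : e • r i p - p = k - e • k := by
        rw [sub_eq_sub_iff_add_eq_add, hv, add_comm]
      rw [h2]
      exact Submodule.sub_mem _ hk (Submodule.smul_mem _ _ hk)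
  have h2 := rs_no hR i he hp (sub_eq_zero.1 h1)
  rw [h2, zero_add]
  exact hk

/-- a perfect group containing a lift of `t i` is not trivial on the plane -/
theorem not_triv (hS : Sys Q ρ π) (hR : RS Q ρ π f t L r c) (i : Fin 3) {M : Subgroup G} (hM : ⁅M, M⁆ = M)
    (ht : t i ∈ M) : ¬ ∀ h ∈ hat π (M.map f), ∀ v ∈ LinearMap.range (r i - 1), ρ h v = v := by
  intro hcon
  obtain ⟨h, hh, he⟩ := exists_lift (f := f) hS hM ht
  obtain ⟨v, hv, hq⟩ := rs_ne hS hR i
  apply hq
  rw [rs_disj hR i hv (fix_ker hR i he (hcon h hh v hv)), QuadraticMap.map_zero]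

/-- the orthogonal complement of the three planes -/
def p4 (r : Fin 3 → Module.End F V) : Submodule F V :=
  LinearMap.ker (r 0 - 1) ⊓ LinearMap.ker (r 1 - 1) ⊓ LinearMap.ker (r 2 - 1)

theorem mem_p4 {v : V} : v ∈ p4 r ↔ ∀ i, v ∈ LinearMap.ker (r i - 1) := by
  unfold p4
  rw [Submodule.mem_inf, Submodule.mem_inf]
  refine ⟨fun h i => ?_, fun h => ⟨⟨h 0, h 1⟩, h 2⟩⟩
  fin_cases i
  · exact h.1.1
  · exact h.1.2
  · exact h.2

theorem le_ker (hS : Sys Q ρ π) (hR : RS Q ρ π f t L r c) {i j : Fin 3} (hij : i ≠ j) :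
    LinearMap.range (r i - 1) ≤ LinearMap.ker (r j - 1) := by
  intro v hv
  rw [mem_ker_iff hS hR]
  intro u hu
  exact hR.perp j i hij.symm u hu v hv

theorem finrank_inf_compl {A P K : Submodule F V} (hPK : IsCompl P K) (hA : P ≤ A) :
    finrank F ↥(A ⊓ K) + finrank F P = finrank F A := by
  have h1 := Submodule.finrank_sup_add_finrank_inf_eq (A ⊓ K) P
  have h2 : (A ⊓ K) ⊓ P = ⊥ := by
    rw [inf_assoc, hPK.symm.inf_eq_bot, inf_bot_eq]
  have h3 : (A ⊓ K) ⊔ P = A := by
    rw [sup_comm, inf_comm A K, ← sup_inf_assoc_of_le K hA, hPK.sup_eq_top, top_inf_eq]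
  rw [h2, h3, finrank_bot, add_zero] at h1
  exact h1.symm

theorem finrank_p4 (hS : Sys Q ρ π) (hR : RS Q ρ π f t L r c) : finrank F (p4 r) = 2 := by
  have h0 := finrank_inf_compl (hR.compl 0) (le_top : LinearMap.range (r 0 - 1) ≤ ⊤)
  rw [finrank_top, hS.dim, hR.dim, top_inf_eq] at h0
  have h1 := finrank_inf_compl (hR.compl 1) (le_ker hS hR (by decide : (1 : Fin 3) ≠ 0))
  rw [hR.dim] at h1
  have h2 := finrank_inf_compl (A := LinearMap.ker (r 0 - 1) ⊓ LinearMap.ker (r 1 - 1)) (hR.compl 2)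
    (le_inf (le_ker hS hR (by decide)) (le_ker hS hR (by decide)))
  rw [hR.dim] at h2
  unfold p4
  omega

/-- every vector is a sum of vectors of the three planes and of `p4` -/
theorem split4 (hS : Sys Q ρ π) (hR : RS Q ρ π f t L r c) (v : V) :
    ∃ p : Fin 3 → V, (∀ i, p i ∈ LinearMap.range (r i - 1)) ∧ ∃ k ∈ p4 r, v = p 0 + p 1 + p 2 + k := by
  obtain ⟨p0, hp0, k0, hk0, rfl⟩ := rs_split hR 0 v
  obtain ⟨p1, hp1, k1, hk1, rfl⟩ := rs_split hR 1 k0
  obtain ⟨p2, hp2, k2, hk2, rfl⟩ := rs_split hR 2 k1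
  have e10 := le_ker hS hR (by decide : (1 : Fin 3) ≠ 0) hp1
  have e20 := le_ker hS hR (by decide : (2 : Fin 3) ≠ 0) hp2
  have e21 := le_ker hS hR (by decide : (2 : Fin 3) ≠ 1) hp2
  have k11 : k2 ∈ LinearMap.ker (r 1 - 1) := by
    have := Submodule.sub_mem _ hk1 e21
    rwa [add_sub_cancel_left] at this
  have k10 : k2 ∈ LinearMap.ker (r 0 - 1) := by
    have := Submodule.sub_mem _ (Submodule.sub_mem _ hk0 e10) e20
    rwa [add_sub_cancel_left, add_sub_cancel_left] at this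
  refine ⟨![p0, p1, p2], fun i => ?_, k2, ?_, ?_⟩
  · fin_cases i
    · exact hp0
    · exact hp1
    · exact hp2
  · rw [mem_p4]
    intro i
    fin_cases i
    · exact k10
    · exact k11
    · exact hk2
  · show p0 + (p1 + (p2 + k2)) = p0 + p1 + p2 + k2
    abel

/-- `p4` is nondegenerate -/
theorem p4_nondeg (hS : Sys Q ρ π) (hR : RS Q ρ π f t L r c) {w : V} (hw : w ∈ p4 r)
    (h : ∀ u ∈ p4 r, polar Q u w = 0) : w = 0 := by
  apply hS.nondeg
  intro u
  obtain ⟨p, hp, k, hk, rfl⟩ := split4 hS hR u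
  rw [mem_p4] at hw
  rw [polar_add_left, polar_add_left, polar_add_left, h k hk, rs_perp_ker hR 0 (hp 0) (hw 0),
    rs_perp_ker hR 1 (hp 1) (hw 1), rs_perp_ker hR 2 (hp 2) (hw 2)]
  ring

/-- in `p4` the orthogonal complement of a nonzero vector is a line -/
theorem p4_line (hS : Sys Q ρ π) (hR : RS Q ρ π f t L r c) {y w v : V} (hy : y ∈ p4 r) (hy0 : y ≠ 0) (hw : w ∈ p4 r)
    (hw0 : w ≠ 0) (hv : v ∈ p4 r) (h1 : polar Q y w = 0) (h2 : polar Q y v = 0) : v ∈ Submodule.span F {w} := by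
  obtain ⟨z, hz, hz0⟩ : ∃ z ∈ p4 r, polar Q y z ≠ 0 := by
    by_contra hcon
    push Not at hcon
    exact hy0 (p4_nondeg hS hR hy fun u hu => by rw [polar_comm]; exact hcon u hu)
  have hli : LinearIndependent F ![(⟨w, hw⟩ : p4 r), ⟨z, hz⟩] := by
    rw [LinearIndependent.pair_iff]
    intro a b h
    have h' : a • w + b • z = 0 := congrArg Subtype.val h
    have h3 : polar Q y (a • w + b • z) = 0 := by rw [h', polar_zero_right]
    rw [polar_add_right, polar_smul_right, polar_smul_right, h1, smul_zero, zero_add] at h3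
    have hb : b = 0 := (smul_eq_zero.1 h3).resolve_right hz0
    rw [hb, zero_smul, add_zero] at h'
    exact ⟨(smul_eq_zero.1 h').resolve_right hw0, hb⟩
  have hsp := hli.span_eq_top_of_card_eq_finrank (by rw [finrank_p4 hS hR]; rfl)
  have hvs : (⟨v, hv⟩ : p4 r) ∈ Submodule.span F (Set.range ![(⟨w, hw⟩ : p4 r), ⟨z, hz⟩]) := by
    rw [hsp]; exact Submodule.mem_top
  rw [Matrix.range_cons, Matrix.range_cons, Matrix.range_empty, Set.union_empty, Set.singleton_union,
    Submodule.mem_span_pair] at hvs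
  obtain ⟨a, b, h⟩ := hvs
  have h' : a • w + b • z = v := congrArg Subtype.val h
  rw [← h', polar_add_right, polar_smul_right, polar_smul_right, h1, smul_zero, zero_add] at h2
  have hb : b = 0 := (smul_eq_zero.1 h2).resolve_right hz0
  rw [hb, zero_smul, add_zero] at h'
  rw [← h']
  exact Submodule.smul_mem _ _ (Submodule.mem_span_singleton_self w)

end Cfsg.Agent.H332.O8R
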